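import Mathlib
import Cfsg.Agent.Lib.Linear.Card

/-! Small PSL_2 as permutation groups of the projective line. -/
set_option autoImplicit false

namespace CfsgLib.Linear.SmallPSL

variable {F : Type*} [Field F] [Fintype F]

theorem card_line : Nat.card (Projectivization F (Fin 2 → F)) = Fintype.card F + 1 := by
  rw [Projectivization.card_of_finrank_two (h := Module.finrank_fin_fun F), Nat.card_eq_fintype_card]

/-- an injective hom into permutations of the projective line, transported to `Fin` -/
theorem exists_hom_PSL {m : ℕ} (hm : Fintype.card F + 1 = m) :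
    ∃ f : Matrix.ProjectiveSpecialLinearGroup (Fin 2) F →* Equiv.Perm (Fin m), Function.Injective f := by
  have e : Projectivization F (Fin 2 → F) ≃ Fin m :=
    (Finite.equivFinOfCardEq (by rw [card_line, hm]))
  exact ⟨e.permCongrHom.toMonoidHom.comp (Projectivization.PSLAction.toPermHom (K := F) (ι := Fin 2)),
    e.permCongrHom.injective.comp Matrix.ProjectiveSpecialLinearGroup.toPermHom_injective⟩

theorem card_SL2 : (Fintype.card F - 1) * Nat.card (Matrix.SpecialLinearGroup (Fin 2) F) =
    (Fintype.card F ^ 2 - 1) * (Fintype.card F ^ 2 - Fintype.card F) := by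
  rw [CfsgLib.Linear.Card.card_SL 2 (by norm_num), Fin.prod_univ_two]
  simp

end CfsgLib.Linear.SmallPSL
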